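import Cfsg.Agent.H835.Sd.Weyl

/-!
# A non-generic character is trivial on `U ∩ m U m⁻¹` for a non-longest `m` (S4579, TL-5)
-/

set_option autoImplicit false

namespace Cfsg.Agent.H835.Sd

open Matrix

variable {n : ℕ}

/-- exchange of the first `j` and the last `j` elements -/
def swf (n j : ℕ) (hj : 2 * j ≤ n) (k : Fin n) : Fin n :=
  if h : k.val < j then ⟨k.val + (n - j), by omega⟩ else if h' : n - j ≤ k.val then ⟨k.val - (n - j), by omega⟩ else k

theorem swf_val (n j : ℕ) (hj : 2 * j ≤ n) (k : Fin n) : (swf n j hj k).val =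
    if k.val < j then k.val + (n - j) else if n - j ≤ k.val then k.val - (n - j) else k.val := by
  unfold swf
  split_ifs <;> rfl

theorem swf_inv (n j : ℕ) (hj : 2 * j ≤ n) : Function.Involutive (swf n j hj) := by
  intro k
  apply Fin.ext
  rw [swf_val, swf_val]
  have := k.2
  split_ifs <;> omega

/-- the permutation -/
def sw (n j : ℕ) (hj : 2 * j ≤ n) : Equiv.Perm (Fin n) := (swf_inv n j hj).toPerm

theorem sw_apply (n j : ℕ) (hj : 2 * j ≤ n) (k : Fin n) : sw n j hj k = swf n j hj k := rfl

theorem sw_CR (n j : ℕ) (hj : 2 * j ≤ n) : CR (sw n j hj) := by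
  intro k
  apply Fin.ext
  rw [sw_apply, sw_apply, swf_val, Fin.val_rev, Fin.val_rev, swf_val]
  have := k.2
  split_ifs <;> omega

theorem sw_lt (n j : ℕ) (hj : 2 * j ≤ n) {k l : Fin n} (hl : l.val = k.val + 1) (h1 : k.val + 1 ≠ j)
    (h2 : k.val + 1 ≠ n - j) : sw n j hj k < sw n j hj l := by
  change (swf n j hj k).val < (swf n j hj l).val
  rw [swf_val, swf_val]
  have := k.2
  have := l.2
  split_ifs <;> omega

variable {K : Type*} [Field K] [Finite K] {τ : K →+* K} {q : ℕ}

theorem exists_nongen (h : Frob τ q) {ψ : UJ n τ →* ℂˣ} (hψ : ¬ Gen h ψ) :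
    ∃ m ∈ SUJ n τ, ∃ π : Equiv.Perm (Fin n), IsMon π m ∧ π ≠ rv n ∧ TrivJ ψ m := by
  unfold Gen at hψ
  push Not at hψ
  obtain ⟨i, j, hij, hψ⟩ := hψ
  have hjn := j.2
  set b := min i.val (n - 2 - i.val) + 1 with hb
  have hb2 : 2 * b ≤ n := by omega
  have hlt : i < j := by change i.val < j.val; omega
  have hrv : CR (rv n) := by
    intro k
    rw [rv_apply, rv_apply]
  obtain ⟨m, hm, hm'⟩ := exists_rep h (by omega) ((sw_CR n b hb2).mul hrv)
  refine ⟨m, hm, _, hm', ?_, ?_⟩
  · intro e
    have e1 : sw n b hb2 = 1 := by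
      have := congrArg (fun σ => σ * (rv n)⁻¹) e
      simpa using this
    have h1 := congrArg (fun σ : Equiv.Perm (Fin n) => (σ ⟨0, by omega⟩).val) e1
    change (swf n b hb2 ⟨0, _⟩).val = 0 at h1
    rw [swf_val, if_pos (show (0 : ℕ) < b by omega)] at h1
    change 0 + (n - b) = 0 at h1
    omega
  · intro u hu
    have hf : Fact (1 < 2) := ⟨by norm_num⟩
    apply eq_one_of_sq h
    rw [sq_eq' h ψ u]
    refine Finset.prod_eq_one fun p hp => ?_
    obtain ⟨k, l⟩ := p
    have hkl : l.val = k.val + 1 := (Finset.mem_filter.1 hp).2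
    change ψ (xe h k l (u.1.1 k l)) = 1
    by_cases h1 : k = i
    · have h2 : l = j := by apply Fin.ext; rw [hkl, hij, h1]
      rw [h1, h2]
      exact hψ _
    · by_cases h2 : k = j.rev
      · have h3 : l = i.rev := by
          apply Fin.ext
          rw [hkl, h2, Fin.val_rev, Fin.val_rev]
          omega
        rw [h2, h3, xe_rev h hlt]
        exact hψ _
      · have h0 : u.1.1 k l = 0 := by
          obtain ⟨c, hc, d, hd, e, -⟩ := conj_inv_en hm' u.1 k l
          have h4 : sw n b hb2 k < sw n b hb2 l := by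
            refine sw_lt n b hb2 hkl ?_ ?_
            · intro e1
              have hi : k.val ≠ i.val := fun e => h1 (Fin.ext e)
              have hj : k.val ≠ n - 2 - i.val := fun e => h2 (Fin.ext (by rw [e, Fin.val_rev]; omega))
              omega
            · intro e1
              have hi : k.val ≠ i.val := fun e => h1 (Fin.ext e)
              have hj : k.val ≠ n - 2 - i.val := fun e => h2 (Fin.ext (by rw [e, Fin.val_rev]; omega))
              omega
          have h5 : (sw n b hb2 * rv n)⁻¹ l < (sw n b hb2 * rv n)⁻¹ k := by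
            have e1 : ∀ x, (sw n b hb2 * rv n)⁻¹ x = (sw n b hb2 x).rev := fun x => rfl
            rw [e1, e1]
            exact Fin.rev_lt_rev.2 h4
          rw [uni_en_of_lt hu h5] at e
          have h6 := (mul_eq_zero.1 e.symm).resolve_right hd
          exact (mul_eq_zero.1 h6).resolve_left hc
        rw [h0]
        have h1 := psi_add h ψ hkl 0 0
        rw [add_zero, left_eq_mul] at h1
        exact h1

end Cfsg.Agent.H835.Sd
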